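/-
Singular subgroups in the setting `Q x = O₂(C(x))`.
-/
import Cfsg.Agent.Lib.LargeES.QMap

set_option autoImplicit false
set_option linter.unusedVariables false
set_option linter.unusedSectionVars false

open scoped commutatorElement

namespace CfsgLib.LargeES

open Cfsg

variable {G : Type*} [Group G] [Finite G]

variable {Q : G → Subgroup G}
  (hQ : ∀ x : G, Q x = (pCore 2 ↥(Subgroup.centralizer ({x} : Set G))).map (Subgroup.centralizer ({x} : Set G)).subtype)
  {z : G} (hzb : ESZ (Q z) z)
  {U : Subgroup G} (hU2 : ∀ u ∈ U, u * u = 1) (hS : ∀ u ∈ U, u ≠ 1 → ∃ g : G, g * z * g⁻¹ = u)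
  (hO : ∀ u ∈ U, ∀ v ∈ U, u ≠ 1 → v ≠ 1 → v ∈ Q u)

include hQ hzb hU2 hS hO in
theorem main_5598 (QU : Subgroup G) (hQU : QU = ⨅ u ∈ ((U : Set G) \ {1}), Q u)
    (T : Set G) (hT : Subgroup.closure T = U) (hT1 : (1 : G) ∉ T) : QU = ⨅ t ∈ T, Q t := by
  have hTU : ∀ t ∈ T, t ∈ U := fun t ht => hT ▸ Subgroup.subset_closure ht
  apply le_antisymm
  · apply le_iInf₂
    intro t ht
    rw [hQU]
    refine iInf₂_le_of_le t ⟨hTU t ht, ?_⟩ le_rfl
    intro h
    rw [Set.mem_singleton_iff] at h
    exact hT1 (h ▸ ht)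
  · intro x hx
    rw [Subgroup.mem_iInf] at hx
    have hx' : ∀ t ∈ T, x ∈ Q t := fun t ht => by
      have := hx t
      rw [Subgroup.mem_iInf] at this
      exact this ht
    let A : Subgroup G := finSub (fun u => u ∈ U ∧ (u = 1 ∨ x ∈ Q u)) ⟨U.one_mem, Or.inl rfl⟩ (by
      rintro a b ⟨ha, ha'⟩ ⟨hb, hb'⟩
      refine ⟨U.mul_mem ha hb, ?_⟩
      rcases ha' with rfl | ha'
      · rw [one_mul]; exact hb'
      · rcases hb' with rfl | hb'
        · rw [mul_one]; exact Or.inr ha'
        · by_cases ha1 : a = 1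
          · subst ha1
            rw [one_mul]
            exact Or.inr hb'
          by_cases hb1 : b = 1
          · subst hb1
            rw [mul_one]
            exact Or.inr ha'
          by_cases hab : a = b
          · subst hab
            exact Or.inl (hU2 a ha)
          · exact Or.inr (inter_le_mul hQ hzb hU2 hS hO ha hb ha1 hb1 hab ha' hb'))
    have hle : Subgroup.closure T ≤ A := by
      rw [Subgroup.closure_le]
      intro t ht
      exact ⟨hTU t ht, Or.inr (hx' t ht)⟩
    rw [hT] at hle
    rw [hQU, Subgroup.mem_iInf]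
    intro u
    rw [Subgroup.mem_iInf]
    rintro ⟨hu, hu1⟩
    rcases (hle hu).2 with h | h
    · exact absurd h hu1
    · exact h

include hQ hzb hU2 hS hO in
theorem main_5597 (QU LU : Subgroup G) (hQU : QU = ⨅ u ∈ ((U : Set G) \ {1}), Q u)
    (hLU : LU = ⨆ u ∈ ((U : Set G) \ {1}), Q u) :
    (∀ g ∈ LU, ∀ x ∈ QU, g * x * g⁻¹ * x⁻¹ ∈ U) ∧
      ∀ x ∈ QU, x ∉ U → ∀ u ∈ U, ∃ g ∈ LU ⊓ Subgroup.centralizer (U : Set G), g * x * g⁻¹ = x * u := by
  have hmemQ : ∀ x ∈ QU, ∀ u ∈ U, u ≠ 1 → x ∈ Q u := by
    intro x hx u hu hu1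
    rw [hQU, Subgroup.mem_iInf] at hx
    have := hx u
    rw [Subgroup.mem_iInf] at this
    exact this ⟨hu, hu1⟩
  have hUact := L_act_U hQ hzb hS hO LU hLU
  constructor
  · have hP : ∀ g ∈ LU, (∀ w ∈ U, g * w * g⁻¹ ∈ U) ∧ ∀ x ∈ QU, g * x * g⁻¹ * x⁻¹ ∈ U := by
      apply gen_act (Q := Q) (U := U) LU hLU
      · refine ⟨fun w hw => by simpa using hw, fun x _ => by simp⟩
      · rintro a b ⟨ha1, ha2⟩ ⟨hb1, hb2⟩
        refine ⟨fun w hw => ?_, fun x hx => ?_⟩
        · have e : a * b * w * (a * b)⁻¹ = a * (b * w * b⁻¹) * a⁻¹ := by group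
          rw [e]
          exact ha1 _ (hb1 _ hw)
        · have e : a * b * x * (a * b)⁻¹ * x⁻¹ =
              a * (b * x * b⁻¹ * x⁻¹) * a⁻¹ * (a * x * a⁻¹ * x⁻¹) := by group
          rw [e]
          exact U.mul_mem (ha1 _ (hb2 x hx)) (ha2 x hx)
      · intro u hu hu1 g hg
        refine ⟨fun w hw => act_U hQ hzb hS hO hu hu1 hg hw, fun x hx => ?_⟩
        have hE := esz_conj hQ hzb (hS u hu hu1)
        rcases hE.comm g hg x (hmemQ x hx u hu hu1) with h | h
        · rw [h]; exact U.one_mem
        · rw [h]; exact hu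
    exact fun g hg => (hP g hg).2
  · intro x hx hxU w hw
    by_cases hw1 : w = 1
    · subst hw1
      exact ⟨1, Subgroup.one_mem _, by simp⟩
    · have hE := esz_conj hQ hzb (hS w hw hw1)
      have hxw := hmemQ x hx w hw hw1
      obtain ⟨q, hq, hqU, hqx⟩ := hE.dc U (U_le_Q hO hw hw1) hw hxw hxU
      refine ⟨q, Subgroup.mem_inf.mpr ⟨?_, ?_⟩, ?_⟩
      · rw [hLU]
        exact Subgroup.mem_iSup_of_mem w (Subgroup.mem_iSup_of_mem ⟨hw, hw1⟩ hq)
      · rw [Subgroup.mem_centralizer_iff]
        intro a ha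
        exact (hqU a ha).symm
      · have h2 : q * x * q⁻¹ = w * x := mul_inv_eq_iff_eq_mul.mp hqx
        rw [h2]
        exact (Q_comm hQ hxw).symm

include hQ hzb hU2 hS hO in
theorem main_5596 (QU LU : Subgroup G) (hQU : QU = ⨅ u ∈ ((U : Set G) \ {1}), Q u)
    (hLU : LU = ⨆ u ∈ ((U : Set G) \ {1}), Q u) (n : ℕ) (hn : 2 ≤ n) (hcard : Nat.card ↥U = 2 ^ n) :
    U ≤ QU ∧ QU ≤ LU ∧ LU ≤ Subgroup.normalizer (U : Set G) ∧
      ∀ φ : ↥U ≃* ↥U, ∃ g ∈ LU, ∀ u : ↥U, g * (u : G) * g⁻¹ = ((φ u : ↥U) : G) := by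
  have hUact := L_act_U hQ hzb hS hO LU hLU
  have hmemL : ∀ u ∈ U, u ≠ 1 → Q u ≤ LU := by
    intro u hu hu1 q hq
    rw [hLU]
    exact Subgroup.mem_iSup_of_mem u (Subgroup.mem_iSup_of_mem ⟨hu, hu1⟩ hq)
  refine ⟨?_, ?_, ?_, ?_⟩
  · rw [hQU]
    apply le_iInf₂
    rintro u ⟨hu, hu1⟩
    exact U_le_Q hO hu hu1
  · have hne : ∃ u ∈ U, u ≠ 1 := by
      by_contra hno
      push Not at hno
      have : U = ⊥ := (Subgroup.eq_bot_iff_forall U).mpr hno
      rw [this, Subgroup.card_bot] at hcard
      have : 2 ^ 2 ≤ 2 ^ n := Nat.pow_le_pow_right (by norm_num) hn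
      omega
    obtain ⟨u, hu, hu1⟩ := hne
    intro x hx
    apply hmemL u hu hu1
    rw [hQU, Subgroup.mem_iInf] at hx
    have := hx u
    rw [Subgroup.mem_iInf] at this
    exact this ⟨hu, hu1⟩
  · intro g hg
    exact mem_normalizer_of_conj (fun w hw => hUact g hg w hw)
  · intro φ
    have key : ∀ B : Subgroup G, B ≤ U →
        (∃ g ∈ LU, ∀ v (hv : v ∈ U), v ∈ B → g * v * g⁻¹ = ((φ ⟨v, hv⟩ : ↥U) : G)) →
        ∃ g ∈ LU, ∀ u : ↥U, g * (u : G) * g⁻¹ = ((φ u : ↥U) : G) := by
      intro B
      induction B using WellFoundedGT.induction with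
      | ind B ih =>
        rintro hBU ⟨g, hg, hgB⟩
        by_cases hBeq : B = U
        · refine ⟨g, hg, ?_⟩
          rintro ⟨u, hu⟩
          exact hgB u hu (hBeq ▸ hu)
        have hex : ∃ e ∈ U, e ∉ B := by
          by_contra hno
          push Not at hno
          exact hBeq (le_antisymm hBU hno)
        obtain ⟨e, heU, heB⟩ := hex
        -- extension lemma
        have hext : ∀ g' ∈ LU, (∀ v (hv : v ∈ U), v ∈ B → g' * v * g'⁻¹ = ((φ ⟨v, hv⟩ : ↥U) : G)) →
            g' * e * g'⁻¹ = ((φ ⟨e, heU⟩ : ↥U) : G) → ∃ g ∈ LU, ∀ u : ↥U, g * (u : G) * g⁻¹ = ((φ u : ↥U) : G) := by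
          intro g' hg' h1 h2
          have hlt : B < B ⊔ Subgroup.zpowers e := by
            refine lt_of_le_of_ne le_sup_left ?_
            intro h
            apply heB
            rw [h]
            exact Subgroup.mem_sup_right (Subgroup.mem_zpowers e)
          let W : Subgroup G := finSub (fun v => ∃ hv : v ∈ U, g' * v * g'⁻¹ = ((φ ⟨v, hv⟩ : ↥U) : G))
            ⟨U.one_mem, by
              have : φ ⟨1, U.one_mem⟩ = 1 := map_one φ
              rw [this]; simp⟩ (by
              rintro a b ⟨ha, ea⟩ ⟨hb, eb⟩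
              refine ⟨U.mul_mem ha hb, ?_⟩
              have : (⟨a * b, U.mul_mem ha hb⟩ : ↥U) = ⟨a, ha⟩ * ⟨b, hb⟩ := rfl
              rw [this, map_mul]
              show g' * (a * b) * g'⁻¹ = ((φ ⟨a, ha⟩ : ↥U) : G) * ((φ ⟨b, hb⟩ : ↥U) : G)
              rw [← ea, ← eb]
              group)
          have hleW : B ⊔ Subgroup.zpowers e ≤ W := by
            apply sup_le
            · intro v hv
              exact ⟨hBU hv, h1 v (hBU hv) hv⟩
            · rw [Subgroup.zpowers_le]
              exact ⟨heU, h2⟩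
          refine ih _ hlt (sup_le hBU ?_) ⟨g', hg', ?_⟩
          · rw [Subgroup.zpowers_le]; exact heU
          · intro v hv hvs
            obtain ⟨_, h3⟩ := hleW hvs
            exact h3
        -- the image
        set f := g⁻¹ * ((φ ⟨e, heU⟩ : ↥U) : G) * g with hf
        have hgi : g⁻¹ ∈ LU := LU.inv_mem hg
        have hfU : f ∈ U := by
          have := hUact g⁻¹ hgi _ (φ ⟨e, heU⟩).2
          rwa [inv_inv] at this
        have hgf : g * f * g⁻¹ = ((φ ⟨e, heU⟩ : ↥U) : G) := by rw [hf]; group
        have hfB : f ∉ B := by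
          intro hfb
          have h1 := hgB f hfU hfb
          rw [hgf] at h1
          have h2 : (⟨e, heU⟩ : ↥U) = ⟨f, hfU⟩ := φ.injective (Subtype.ext h1)
          apply heB
          have h3 : e = f := congrArg Subtype.val h2
          rw [h3]; exact hfb
        by_cases hef : f = e
        · refine hext g hg hgB ?_
          calc g * e * g⁻¹ = g * f * g⁻¹ := by rw [hef]
            _ = _ := hgf
        · have hee := hU2 e heU
          have hff := hU2 f hfU
          have hcomm : ∀ {a b : G}, a ∈ U → b ∈ U → a * b = b * a := fun ha hb => U_comm hU2 ha hb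
          set a := e * f with ha
          have haU : a ∈ U := U.mul_mem heU hfU
          have ha1 : a ≠ 1 := by
            intro h
            apply hef
            calc f = (e * e) * f := by rw [hee, one_mul]
              _ = e * (e * f) := by group
              _ = e := by rw [← ha, h, mul_one]
          have haa := hU2 a haU
          have hE := esz_conj hQ hzb (hS a haU ha1)
          have hUQ := U_le_Q hO haU ha1
          have hAle : B ⊔ Subgroup.zpowers a ≤ U := sup_le hBU (by rw [Subgroup.zpowers_le]; exact haU)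
          have heA : e ∉ B ⊔ Subgroup.zpowers a := by
            intro hmem
            let W : Subgroup G := finSub (fun x => x ∈ U ∧ (x ∈ B ∨ a * x ∈ B)) ⟨U.one_mem, Or.inl B.one_mem⟩ (by
              rintro x y ⟨hx, hx'⟩ ⟨hy, hy'⟩
              refine ⟨U.mul_mem hx hy, ?_⟩
              rcases hx' with hx' | hx' <;> rcases hy' with hy' | hy'
              · exact Or.inl (B.mul_mem hx' hy')
              · right
                have : a * (x * y) = x * (a * y) := by
                  rw [← mul_assoc, hcomm haU hx, mul_assoc]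
                rw [this]
                exact B.mul_mem hx' hy'
              · right
                rw [← mul_assoc]
                exact B.mul_mem hx' hy'
              · left
                have : x * y = (a * x) * (a * y) := by
                  calc x * y = (a * a) * (x * y) := by rw [haa, one_mul]
                    _ = a * (a * x) * y := by group
                    _ = a * (x * a) * y := by rw [hcomm haU hx]
                    _ = (a * x) * (a * y) := by group
                rw [this]
                exact B.mul_mem hx' hy')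
            have hleW : B ⊔ Subgroup.zpowers a ≤ W := by
              apply sup_le
              · intro v hv
                exact ⟨hBU hv, Or.inl hv⟩
              · rw [Subgroup.zpowers_le]
                exact ⟨haU, Or.inr (by rw [haa]; exact B.one_mem)⟩
            rcases (hleW hmem).2 with h | h
            · exact heB h
            · apply hfB
              have : f = a * e := by
                rw [ha, hcomm heU hfU, mul_assoc, hee, mul_one]
              rw [this]
              exact h
          obtain ⟨q, hq, hqA, hqe⟩ := hE.dc (B ⊔ Subgroup.zpowers a) (hAle.trans hUQ)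
            (Subgroup.mem_sup_right (Subgroup.mem_zpowers a)) (hUQ heU) heA
          have hqe2 : q * e * q⁻¹ = f := by
            have h2 : q * e * q⁻¹ = a * e := mul_inv_eq_iff_eq_mul.mp hqe
            rw [h2, ha, hcomm heU hfU, mul_assoc, hee, mul_one]
          have hqL := hmemL a haU ha1 hq
          refine hext (g * q) (LU.mul_mem hg hqL) ?_ ?_
          · intro v hv hvB
            have h1 : q * v * q⁻¹ = v := by
              rw [hqA v (Subgroup.mem_sup_left hvB)]
              group
            have e2 : g * q * v * (g * q)⁻¹ = g * (q * v * q⁻¹) * g⁻¹ := by group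
            rw [e2, h1]
            exact hgB v hv hvB
          · have e2 : g * q * e * (g * q)⁻¹ = g * (q * e * q⁻¹) * g⁻¹ := by group
            rw [e2, hqe2]
            exact hgf
    apply key ⊥ bot_le
    refine ⟨1, LU.one_mem, ?_⟩
    intro v hv hvb
    rw [Subgroup.mem_bot] at hvb
    subst hvb
    have : φ ⟨1, hv⟩ = 1 := map_one φ
    rw [this]
    simp

end CfsgLib.LargeES
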