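/-
Width one: the centralizer of `z` is a `2`-group; symmetry of orthogonality in general.
-/
import Cfsg.Agent.Lib.LargeES.QMap

set_option autoImplicit false
set_option linter.unusedVariables false
set_option linter.unusedSectionVars false

open scoped commutatorElement

namespace CfsgLib.LargeES

open Cfsg

variable {G : Type*} [Group G] [Finite G]

theorem zpow_invol {t : G} (ht : t * t = 1) (i : ℤ) : t ^ i = 1 ∨ t ^ i = t := by
  rcases Int.even_or_odd' i with ⟨k, rfl | rfl⟩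
  · left
    rw [zpow_mul, zpow_two, ht, one_zpow]
  · right
    rw [zpow_add_one, zpow_mul, zpow_two, ht, one_zpow, one_mul]

theorem enum8 {Q : Subgroup G} {z a b : G} (hz : ESZ Q z) (hcard : Nat.card Q = 8) (ha : a ∈ Q) (hb : b ∈ Q)
    (haa : a * a = 1) (hbb : b * b = 1) (hab : a * b * a⁻¹ * b⁻¹ = z) {y : G} (hy : y ∈ Q) :
    ∃ ε, (ε = 1 ∨ ε = z) ∧ (y = ε ∨ y = a * ε ∨ y = b * ε ∨ y = a * b * ε) := by
  have hH := hz.isES
  set x₁ : Q := ⟨a, ha⟩ with hx₁
  set y₁ : Q := ⟨b, hb⟩ with hy₁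
  have hw : ⁅x₁, y₁⁆ ≠ 1 := by
    intro h
    have h2 : a * b * a⁻¹ * b⁻¹ = 1 := congrArg Subtype.val h
    rw [hab] at h2
    exact hz.ne h2
  have hc := CfsgLib.OOL.ES.es_card hH hw
  have hc2 : Nat.card (CfsgLib.OOL.ES.esC x₁ y₁) = 2 := by
    rw [hcard] at hc
    omega
  have hle := CfsgLib.OOL.ES.center_le_esC x₁ y₁
  have heq : Subgroup.center Q = CfsgLib.OOL.ES.esC x₁ y₁ :=
    Subgroup.eq_of_le_of_card_ge hle (by rw [hc2, hH.card_center])
  obtain ⟨c, hcE, i, j, hg⟩ := CfsgLib.OOL.ES.es_decomp hH hw (⟨y, hy⟩ : Q)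
  rw [← heq] at hcE
  have hcv : c.1 = 1 ∨ c.1 = z := hz.center c.1 c.2 (fun d hd => by
    have := (Subgroup.mem_center_iff.mp hcE) ⟨d, hd⟩
    exact (congrArg Subtype.val this).symm)
  have hval : y = c.1 * a ^ i * b ^ j := by
    have := congrArg Subtype.val hg
    simpa using this
  have hcz : ∀ t ∈ Q, t * c.1 = c.1 * t := by
    intro t ht
    have := (Subgroup.mem_center_iff.mp hcE) ⟨t, ht⟩
    exact congrArg Subtype.val this
  refine ⟨c.1, hcv, ?_⟩
  rcases zpow_invol haa i with hi | hi <;> rcases zpow_invol hbb j with hj | hj <;> rw [hi, hj] at hval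
  · left; simpa using hval
  · right; right; left
    rw [hval, mul_one]
    exact (hcz b hb).symm
  · right; left
    rw [hval, mul_one]
    exact (hcz a ha).symm
  · right; right; right
    rw [hval, mul_assoc]
    exact (hcz _ (Q.mul_mem ha hb)).symm

theorem n1_core {Q : Subgroup G} {z a : G} (hz : ESZ Q z) (hcard : Nat.card Q = 8)
    (hN : ∀ c, c * z = z * c → ∀ q ∈ Q, c * q * c⁻¹ ∈ Q) (hC : ∀ c, (∀ q ∈ Q, c * q = q * c) → c ∈ Q)
    (ha : a ∈ Q) (haa : a * a = 1) (ha1 : a ≠ 1) (haz : a ≠ z) {p : G} (hp : p * z = z * p) : p * p ∈ Q := by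
  have hzz := hz.sq
  have hzi : z⁻¹ = z := inv_eq_of_mul_eq_one_left hzz
  have hai : a⁻¹ = a := inv_eq_of_mul_eq_one_left haa
  -- a partner of square one
  obtain ⟨b, hb, hbb, hab⟩ : ∃ b ∈ Q, b * b = 1 ∧ a * b * a⁻¹ * b⁻¹ = z := by
    have hex : ∃ b₀ ∈ Q, a * b₀ ≠ b₀ * a := by
      by_contra hno
      push Not at hno
      rcases hz.center a ha hno with h | h
      · exact ha1 h
      · exact haz h
    obtain ⟨b₀, hb₀, hne⟩ := hex
    have hcomm : a * b₀ * a⁻¹ * b₀⁻¹ = z := by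
      rcases hz.comm a ha b₀ hb₀ with h | h
      · exfalso
        apply hne
        have h2 : a * b₀ * a⁻¹ = b₀ := mul_inv_eq_one.mp h
        exact mul_inv_eq_iff_eq_mul.mp h2
      · exact h
    have hcomm2 : a * b₀ * a = z * b₀ := by
      have := mul_inv_eq_iff_eq_mul.mp hcomm
      rwa [hai] at this
    rcases hz.sqq b₀ hb₀ with hs | hs
    · exact ⟨b₀, hb₀, hs, hcomm⟩
    · refine ⟨a * b₀, Q.mul_mem ha hb₀, ?_, ?_⟩
      · calc a * b₀ * (a * b₀) = (a * b₀ * a) * b₀ := by group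
          _ = z * (b₀ * b₀) := by rw [hcomm2]; group
          _ = 1 := by rw [hs, hzz]
      · calc a * (a * b₀) * a⁻¹ * (a * b₀)⁻¹ = a * (a * b₀ * a⁻¹ * b₀⁻¹) * a⁻¹ := by group
          _ = a * z * a⁻¹ := by rw [hcomm]
          _ = z := by rw [hz.cent a ha]; group
  have hbi : b⁻¹ = b := inv_eq_of_mul_eq_one_left hbb
  have hzQ := hz.mem
  have haz' : a * z = z * a := hz.cent a ha
  have hbz' : b * z = z * b := hz.cent b hb
  have hab1 : a * b * a = z * b := by
    have := mul_inv_eq_iff_eq_mul.mp hab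
    rwa [hai] at this
  have hab2 : a * b = z * b * a := by
    calc a * b = (a * b * a) * a := by rw [mul_assoc (a * b), haa, mul_one]
      _ = z * b * a := by rw [hab1]
  have hba1 : b * a * b = z * a := by
    calc b * a * b = b * (a * b) := by group
      _ = b * (z * b * a) := by rw [hab2]
      _ = (b * z) * (b * a) := by group
      _ = (z * b) * (b * a) := by rw [hbz']
      _ = z * (b * b) * a := by group
      _ = z * a := by rw [hbb, mul_one]
  set c := a * b with hc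
  have hcc : c * c = z := by
    calc c * c = (a * b * a) * b := by rw [hc]; group
      _ = z * (b * b) := by rw [hab1]; group
      _ = z := by rw [hbb, mul_one]
  have hcQ : c ∈ Q := Q.mul_mem ha hb
  have henum := fun {y : G} (hy : y ∈ Q) => enum8 hz hcard ha hb haa hbb hab hy
  -- squares
  have hs : ∀ y ∈ Q, ∀ ε, (ε = 1 ∨ ε = z) → (y * ε) * (y * ε) = y * y := by
    intro y hy ε hε
    rcases hε with h | h
    · rw [h]; simp
    · rw [h]
      calc (y * z) * (y * z) = y * (z * y) * z := by group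
        _ = y * (y * z) * z := by rw [hz.cent y hy]
        _ = (y * y) * (z * z) := by group
        _ = y * y := by rw [hzz, mul_one]
  have hεε : ∀ ε, (ε = 1 ∨ ε = z) → ε * ε = 1 := by
    intro ε hε
    rcases hε with h | h
    · rw [h]; simp
    · rw [h]; exact hzz
  have hεQ : ∀ ε, (ε = 1 ∨ ε = z) → ε ∈ Q := by
    intro ε hε
    rcases hε with h | h
    · rw [h]; exact Q.one_mem
    · rw [h]; exact hzQ
  have hεcomm : ∀ ε, (ε = 1 ∨ ε = z) → ∀ t ∈ Q, t * ε = ε * t := by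
    intro ε hε t ht
    rcases hε with h | h
    · rw [h]; simp
    · rw [h]; exact hz.cent t ht
  -- conjugation by p fixes z
  have hpz : p * z * p⁻¹ = z := by rw [hp]; group
  have hpε : ∀ ε, (ε = 1 ∨ ε = z) → p * ε * p⁻¹ = ε := by
    intro ε hε
    rcases hε with h | h
    · rw [h]; simp
    · rw [h]; exact hpz
  -- commuting with a, b gives membership
  have hcent : ∀ d, d * a = a * d → d * b = b * d → d ∈ Q := by
    intro d hda hdb
    apply hC
    intro y hy
    obtain ⟨ε, hε, h⟩ := henum hy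
    have ca : Commute d a := hda
    have cb : Commute d b := hdb
    have hdz : d * z = z * d := by
      have h4 : Commute d (a * b * a * b) := ((ca.mul_right cb).mul_right ca).mul_right cb
      have h5 : a * b * a * b = z := by
        have := hab
        rwa [hai, hbi] at this
      rw [h5] at h4
      exact h4.eq
    have cε : Commute d ε := by
      rcases hε with h' | h'
      · rw [h']; exact Commute.one_right d
      · rw [h']; exact hdz
    rcases h with rfl | rfl | rfl | rfl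
    · exact cε.eq
    · exact (ca.mul_right cε).eq
    · exact (cb.mul_right cε).eq
    · exact ((ca.mul_right cb).mul_right cε).eq
  set y₁ := p * a * p⁻¹ with hy₁
  set y₃ := p * c * p⁻¹ with hy₃
  have hy₁Q : y₁ ∈ Q := hN p hp a ha
  have hy₃Q : y₃ ∈ Q := hN p hp c hcQ
  have hy₁s : y₁ * y₁ = 1 := by
    calc y₁ * y₁ = p * (a * a) * p⁻¹ := by rw [hy₁]; group
      _ = 1 := by rw [haa]; group
  have hy₃s : y₃ * y₃ = z := by
    calc y₃ * y₃ = p * (c * c) * p⁻¹ := by rw [hy₃]; group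
      _ = z := by rw [hcc, hpz]
  have hy₁1 : y₁ ≠ 1 := by
    intro h
    apply ha1
    have : a = p⁻¹ * y₁ * p := by rw [hy₁]; group
    rw [this, h]; group
  have hy₁z : y₁ ≠ z := by
    intro h
    apply haz
    have h2 : a = p⁻¹ * y₁ * p := by rw [hy₁]; group
    rw [h2, h]
    calc p⁻¹ * z * p = p⁻¹ * (p * z * p⁻¹) * p := by rw [hpz]
      _ = z := by group
  have hy₂ : p * b * p⁻¹ = y₁ * y₃ := by
    calc p * b * p⁻¹ = p * ((a * a) * b) * p⁻¹ := by rw [haa, one_mul]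
      _ = y₁ * y₃ := by rw [hy₁, hy₃, hc]; group
  have hzn : z ≠ 1 := hz.ne
  -- y₃ is c up to z
  obtain ⟨ε₃, hε₃, hy₃c⟩ : ∃ ε₃, (ε₃ = 1 ∨ ε₃ = z) ∧ y₃ = c * ε₃ := by
    obtain ⟨ε, hε, h⟩ := henum hy₃Q
    refine ⟨ε, hε, ?_⟩
    rcases h with h | h | h | h
    · exfalso; rw [h, hεε ε hε] at hy₃s; exact hzn hy₃s.symm
    · exfalso; rw [h, hs a ha ε hε, haa] at hy₃s; exact hzn hy₃s.symm
    · exfalso; rw [h, hs b hb ε hε, hbb] at hy₃s; exact hzn hy₃s.symm
    · exact h
  have hss1 : ∀ x, p * (p * x * p⁻¹) * p⁻¹ = (p * p) * x * (p * p)⁻¹ := fun x => by group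
  -- y₁ is a or b up to z
  obtain ⟨ε₁, hε₁, hy₁c⟩ : ∃ ε₁, (ε₁ = 1 ∨ ε₁ = z) ∧ (y₁ = a * ε₁ ∨ y₁ = b * ε₁) := by
    obtain ⟨ε, hε, h⟩ := henum hy₁Q
    refine ⟨ε, hε, ?_⟩
    rcases h with h | h | h | h
    · exfalso
      rcases hε with h' | h'
      · exact hy₁1 (h.trans h')
      · exact hy₁z (h.trans h')
    · exact Or.inl h
    · exact Or.inr h
    · exfalso
      have h2 := hs c hcQ ε hε
      rw [← hc] at h
      rw [← h, hy₁s, hcc] at h2
      exact hzn h2.symm
  have hεmul : ∀ e f, (e = 1 ∨ e = z) → (f = 1 ∨ f = z) → (e * f = 1 ∨ e * f = z) := by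
    intro e f he hf
    rcases he with rfl | rfl <;> rcases hf with rfl | rfl
    · left; simp
    · right; simp
    · right; simp
    · left; exact hzz
  rcases hy₁c with hA | hB
  · -- first case
    apply hcent
    · have h1 : (p * p) * a * (p * p)⁻¹ = a := by
        rw [← hss1, ← hy₁, hA]
        calc p * (a * ε₁) * p⁻¹ = (p * a * p⁻¹) * (p * ε₁ * p⁻¹) := by group
          _ = (a * ε₁) * ε₁ := by rw [hpε ε₁ hε₁, ← hy₁, hA]
          _ = a * (ε₁ * ε₁) := by group
          _ = a := by rw [hεε ε₁ hε₁, mul_one]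
      exact mul_inv_eq_iff_eq_mul.mp h1
    · have hy₂e : p * b * p⁻¹ = b * (ε₁ * ε₃) := by
        rw [hy₂, hA, hy₃c, hc]
        calc a * ε₁ * (a * b * ε₃) = a * (ε₁ * a) * b * ε₃ := by group
          _ = a * (a * ε₁) * b * ε₃ := by rw [hεcomm ε₁ hε₁ a ha]
          _ = (a * a) * (ε₁ * b) * ε₃ := by group
          _ = (a * a) * (b * ε₁) * ε₃ := by rw [hεcomm ε₁ hε₁ b hb]
          _ = b * (ε₁ * ε₃) := by rw [haa]; group
      have hκ := hεmul _ _ hε₁ hε₃
      have h1 : (p * p) * b * (p * p)⁻¹ = b := by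
        rw [← hss1, hy₂e]
        calc p * (b * (ε₁ * ε₃)) * p⁻¹ = (p * b * p⁻¹) * (p * (ε₁ * ε₃) * p⁻¹) := by group
          _ = (b * (ε₁ * ε₃)) * (ε₁ * ε₃) := by rw [hpε _ hκ, hy₂e]
          _ = b * ((ε₁ * ε₃) * (ε₁ * ε₃)) := by group
          _ = b := by rw [hεε _ hκ, mul_one]
      exact mul_inv_eq_iff_eq_mul.mp h1
  · -- second case
    have hκ₃ := hεmul _ _ (Or.inr rfl) hε₃
    have hy₂e : p * b * p⁻¹ = a * (ε₁ * (z * ε₃)) := by
      rw [hy₂, hB, hy₃c, hc]
      calc b * ε₁ * (a * b * ε₃) = b * (ε₁ * a) * b * ε₃ := by group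
        _ = b * (a * ε₁) * b * ε₃ := by rw [hεcomm ε₁ hε₁ a ha]
        _ = b * a * (ε₁ * b) * ε₃ := by group
        _ = b * a * (b * ε₁) * ε₃ := by rw [hεcomm ε₁ hε₁ b hb]
        _ = (b * a * b) * ε₁ * ε₃ := by group
        _ = (z * a) * ε₁ * ε₃ := by rw [hba1]
        _ = (a * z) * ε₁ * ε₃ := by rw [haz']
        _ = a * (z * ε₁) * ε₃ := by group
        _ = a * (ε₁ * z) * ε₃ := by rw [hεcomm ε₁ hε₁ z hzQ]
        _ = a * (ε₁ * (z * ε₃)) := by group
    have hκ := hεmul _ _ hε₁ hκ₃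
    -- the common factor
    have hsa : (p * p) * a * (p * p)⁻¹ = a * (z * ε₃) := by
      rw [← hss1, ← hy₁, hB]
      calc p * (b * ε₁) * p⁻¹ = (p * b * p⁻¹) * (p * ε₁ * p⁻¹) := by group
        _ = (a * (ε₁ * (z * ε₃))) * ε₁ := by rw [hpε ε₁ hε₁, hy₂e]
        _ = a * (ε₁ * ((z * ε₃) * ε₁)) := by group
        _ = a * (ε₁ * (ε₁ * (z * ε₃))) := by rw [hεcomm ε₁ hε₁ _ (Q.mul_mem hzQ (hεQ ε₃ hε₃))]
        _ = a * ((ε₁ * ε₁) * (z * ε₃)) := by group
        _ = a * (z * ε₃) := by rw [hεε ε₁ hε₁, one_mul]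
    have hsb : (p * p) * b * (p * p)⁻¹ = b * (z * ε₃) := by
      rw [← hss1, hy₂e]
      calc p * (a * (ε₁ * (z * ε₃))) * p⁻¹ = (p * a * p⁻¹) * (p * (ε₁ * (z * ε₃)) * p⁻¹) := by group
        _ = (b * ε₁) * (ε₁ * (z * ε₃)) := by rw [hpε _ hκ, ← hy₁, hB]
        _ = b * ((ε₁ * ε₁) * (z * ε₃)) := by group
        _ = b * (z * ε₃) := by rw [hεε ε₁ hε₁, one_mul]
    rcases hκ₃ with hk | hk
    · rw [hk, mul_one] at hsa hsb
      exact hcent _ (mul_inv_eq_iff_eq_mul.mp hsa) (mul_inv_eq_iff_eq_mul.mp hsb)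
    · rw [hk] at hsa hsb
      have hca : c * a * c⁻¹ = a * z := by
        calc c * a * c⁻¹ = a * (b * a * b⁻¹) * a⁻¹ := by rw [hc]; group
          _ = a * (z * a) * a := by rw [hbi, hba1, hai]
          _ = (a * z) * (a * a) := by group
          _ = a * z := by rw [haa, mul_one]
      have hcb : c * b * c⁻¹ = b * z := by
        calc c * b * c⁻¹ = a * b * a⁻¹ := by rw [hc]; group
          _ = z * b := by rw [hai]; exact hab1
          _ = b * z := hbz'.symm
      have hmem : c⁻¹ * (p * p) ∈ Q := by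
        apply hcent
        · calc c⁻¹ * (p * p) * a = c⁻¹ * ((p * p) * a * (p * p)⁻¹) * (p * p) := by group
            _ = c⁻¹ * (c * a * c⁻¹) * (p * p) := by rw [hsa, hca]
            _ = a * (c⁻¹ * (p * p)) := by group
        · calc c⁻¹ * (p * p) * b = c⁻¹ * ((p * p) * b * (p * p)⁻¹) * (p * p) := by group
            _ = c⁻¹ * (c * b * c⁻¹) * (p * p) := by rw [hsb, hcb]
            _ = b * (c⁻¹ * (p * p)) := by group
      have : p * p = c * (c⁻¹ * (p * p)) := by group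
      rw [this]
      exact Q.mul_mem hcQ hmem

/-- Orthogonality is symmetric. -/
theorem main_5595 {Q : G → Subgroup G}
    (hQ : ∀ x : G, Q x = (pCore 2 ↥(Subgroup.centralizer ({x} : Set G))).map (Subgroup.centralizer ({x} : Set G)).subtype)
    (z : G) (hz : orderOf z = 2) (hE : IsExtraspecial 2 ↥(Q z))
    (hC : Subgroup.centralizer ((Q z : Subgroup G) : Set G) ≤ Q z)
    (g : G) (hx : g * z * g⁻¹ ∈ Q z) : z ∈ Q (g * z * g⁻¹) := by
  haveI : Fact (Nat.Prime 2) := ⟨Nat.prime_two⟩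
  have hzb := esz_base hQ hz hE
  have hzz := hzb.sq
  by_cases hne : z = g * z * g⁻¹
  · rw [← hne]; exact hzb.mem
  have hN : ∀ c, c * z = z * c → ∀ q ∈ Q z, c * q * c⁻¹ ∈ Q z := fun c hc q hq => Q_norm hQ hc hq
  have hC' : ∀ c, (∀ q ∈ Q z, c * q = q * c) → c ∈ Q z := by
    intro c hc
    apply hC
    rw [Subgroup.mem_centralizer_iff]
    intro h hh
    exact (hc h hh).symm
  obtain ⟨n, hn, hcard⟩ := CfsgLib.OOL.ES.extraspecial_card hE
  by_cases hn2 : 2 ≤ n
  · have h8 : 8 < Nat.card (Q z) := by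
      rw [hcard]
      calc 8 < 2 ^ 5 := by norm_num
        _ ≤ 2 ^ (2 * n + 1) := Nat.pow_le_pow_right (by norm_num) (by omega)
    rw [Q_conj hQ]
    exact sym_rev hE hzb hN hC' h8 hx hne
  · have hn1 : n = 1 := by omega
    subst hn1
    have hc8 : Nat.card (Q z) = 8 := by rw [hcard]; norm_num
    have ha1 : g * z * g⁻¹ ≠ 1 := (hzb.conj g).ne
    have haa : g * z * g⁻¹ * (g * z * g⁻¹) = 1 := (hzb.conj g).sq
    have hsq : ∀ p : G, p * z = z * p → p * p ∈ Q z := fun p hp =>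
      n1_core hzb hc8 hN hC' hx haa ha1 (Ne.symm hne) hp
    have hpg : IsPGroup 2 ↥(Subgroup.centralizer ({z} : Set G)) := by
      rintro ⟨p, hp⟩
      have hp' : p * z = z * p := Subgroup.mem_centralizer_singleton_iff.mp hp
      obtain ⟨k, hk⟩ := Q_pgroup hQ z ⟨p * p, hsq p hp'⟩
      refine ⟨k + 1, ?_⟩
      apply Subtype.ext
      have h1 : (p * p) ^ 2 ^ k = 1 := by
        have := congrArg Subtype.val hk
        simpa using this
      show p ^ 2 ^ (k + 1) = 1
      rw [pow_succ, mul_comm, pow_mul, pow_two]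
      exact h1
    have htop : pCore 2 ↥(Subgroup.centralizer ({z} : Set G)) = ⊤ := by
      rw [eq_top_iff]
      apply CfsgLib.PLocal.le_pCore_of_normal
      · exact inferInstance
      · exact hpg.to_subgroup _
    rw [Q_conj hQ, mem_conj_map]
    have hcomm : (g⁻¹ * z * g) * z = z * (g⁻¹ * z * g) := by
      have h1 := Q_comm hQ hx
      have h2 : g⁻¹ * (g * z * g⁻¹ * z) * g = g⁻¹ * (z * (g * z * g⁻¹)) * g := by rw [h1]
      calc (g⁻¹ * z * g) * z = g⁻¹ * (z * (g * z * g⁻¹)) * g := by group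
        _ = g⁻¹ * (g * z * g⁻¹ * z) * g := h2.symm
        _ = z * (g⁻¹ * z * g) := by group
    rw [hQ z, htop]
    exact ⟨⟨_, Subgroup.mem_centralizer_singleton_iff.mpr hcomm⟩, Subgroup.mem_top _, rfl⟩

end CfsgLib.LargeES
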